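import Cfsg.Agent.Fus.NormalCentralizer.Basic
import Cfsg.Agent.Fus.PPrimeExist.Generate

/-!
The product of a normal subsystem over `T` with a subgroup between `T` and `S`.
-/

set_option autoImplicit false

namespace CfsgLib.Product89

open Cfsg Cfsg.FusionSystem CfsgLib.Fus CfsgLib.NormalCent

variable {Ω : Type*} [Group Ω] {S T : Subgroup Ω}

/-- The generating automorphisms of the product. -/
structure GenElt (F : Cfsg.FusionSystem S) (E : Cfsg.FusionSystem T) (p : ℕ) (R P : Subgroup Ω)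
    (γ : MulAut P) : Prop where
  le : P ≤ R
  mem : γ ∈ F.autGroup P
  coprime : (orderOf γ).Coprime p
  tc : TCentric F T (P ⊓ T)
  disp : ∀ x : P, (x : Ω)⁻¹ * ((γ x : P) : Ω) ∈ T
  res : ∃ b ∈ E.autGroup (P ⊓ T), ∀ x : (P ⊓ T : Subgroup Ω),
    ((b x : (P ⊓ T : Subgroup Ω)) : Ω) = ((γ (Subgroup.inclusion inf_le_left x) : P) : Ω)

/-- The maps of `F` between subgroups of `R`. -/
def fullOn (F : Cfsg.FusionSystem S) {R : Subgroup Ω} (hR : R ≤ S) : Cfsg.FusionSystem R where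
  Hom P := {φ | φ ∈ F.Hom P ∧ P ≤ R ∧ ∀ x, φ x ∈ R}
  le_of_mem h := ⟨h.2.1, h.2.2⟩
  injective_of_mem h := F.injective_of_mem h.1
  conj_mem hP hg := ⟨F.conj_mem (hP.trans hR) (hR hg), hP,
    fun x => mul_mem (mul_mem hg (hP x.2)) (inv_mem hg)⟩
  comp_mem := fun hφ hψ h => ⟨F.comp_mem hφ.1 hψ.1 h, hφ.2.1, fun x => hψ.2.2 _⟩
  inv_mem := fun {P φ} hφ => by
    obtain ⟨ψ, hψ, hψe⟩ := F.inv_mem hφ.1
    refine ⟨ψ, ⟨hψ, ?_, fun y => ?_⟩, hψe⟩
    · rintro _ ⟨x, rfl⟩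
      exact hφ.2.2 x
    · obtain ⟨_, x, rfl⟩ := y
      rw [hψe]
      exact hφ.2.1 x.2

theorem fullOn_sub (F : Cfsg.FusionSystem S) {R : Subgroup Ω} (hR : R ≤ S) :
    (fullOn F hR).IsSubsystemOf F := fun _ _ h => h.1

theorem GenElt.mem_fullOn {F : Cfsg.FusionSystem S} {E : Cfsg.FusionSystem T} {p : ℕ}
    {R P : Subgroup Ω} {γ : MulAut P} (h : GenElt F E p R P γ) (hR : R ≤ S) :
    γ ∈ (fullOn F hR).autGroup P :=
  (mem_autGroup_iff _ h.le).2
    ⟨(mem_autGroup_iff F (h.le.trans hR)).1 h.mem, h.le, fun x => h.le (γ x).2⟩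

/-- The product of `E` and `R` in `F`. -/
def prodSys (F : Cfsg.FusionSystem S) (E : Cfsg.FusionSystem T) (p : ℕ) {R : Subgroup Ω}
    (hR : R ≤ S) : Cfsg.FusionSystem R :=
  PPrimeExist.least (fun D => ∀ (P : Subgroup Ω) (γ : MulAut P), GenElt F E p R P γ →
    γ ∈ D.autGroup P) (fullOn F hR) fun _ _ h => GenElt.mem_fullOn h hR

theorem prodSys_sub (F : Cfsg.FusionSystem S) (E : Cfsg.FusionSystem T) (p : ℕ) {R : Subgroup Ω}
    (hR : R ≤ S) : (prodSys F E p hR).IsSubsystemOf F :=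
  fun P => (PPrimeExist.least_le (fun _ _ h => GenElt.mem_fullOn h hR) P).trans (fullOn_sub F hR P)

theorem genElt_mem {F : Cfsg.FusionSystem S} {E : Cfsg.FusionSystem T} {p : ℕ} {R P : Subgroup Ω}
    (hR : R ≤ S) {γ : MulAut P} (h : GenElt F E p R P γ) :
    γ ∈ (prodSys F E p hR).autGroup P :=
  PPrimeExist.le_autGroup_least h.le fun _ hD => hD P γ h

theorem prodSys_le {F : Cfsg.FusionSystem S} {E : Cfsg.FusionSystem T} {p : ℕ} {R : Subgroup Ω}
    (hR : R ≤ S) {D : Cfsg.FusionSystem R}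
    (hD : ∀ (P : Subgroup Ω) (γ : MulAut P), GenElt F E p R P γ → γ ∈ D.autGroup P) :
    (prodSys F E p hR).IsSubsystemOf D :=
  PPrimeExist.least_le hD

end CfsgLib.Product89
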