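import Cfsg.Agent.FusModel.Local

/-!
The `K`-normalizer system of a subgroup, and its saturation.
-/

set_option autoImplicit false

namespace CfsgLib.Product89

open Cfsg Cfsg.FusionSystem CfsgLib.Fus CfsgLib.FusModel

variable {Ω : Type*} [Group Ω] {S : Subgroup Ω}

/-- The maps of `F` between subgroups of the `K`-normalizer of `Q` extending to `Q` as elements of
`K`. -/
def kSys (F : Cfsg.FusionSystem S) (Q : Subgroup Ω) (hQ : Q ≤ S) (K : Subgroup (MulAut Q)) :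
    Cfsg.FusionSystem (kNormalizer S Q K) where
  Hom P := {φ | φ ∈ F.Hom P ∧ P ≤ kNormalizer S Q K ∧ (∀ x, φ x ∈ kNormalizer S Q K) ∧
    ∃ ψ ∈ F.Hom (P ⊔ Q), (∀ x : P, ψ (Subgroup.inclusion le_sup_left x) = φ x) ∧
      ∃ α ∈ K, ∀ x : Q, ψ (Subgroup.inclusion le_sup_right x) = ((α x : Q) : Ω)}
  le_of_mem h := ⟨h.2.1, h.2.2.1⟩
  injective_of_mem h := F.injective_of_mem h.1
  conj_mem := by
    intro P g hP hg
    have hPS : P ≤ S := hP.trans (kNormalizer_le K)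
    have hgN : g ∈ Subgroup.normalizer (Q : Set Ω) := kNormalizer_le_normalizer K hg
    exact ⟨F.conj_mem hPS hg.1, hP,
      fun x => mul_mem (mul_mem hg (hP x.2)) (inv_mem hg), _, F.conj_mem (sup_le hPS hQ) hg.1,
      fun x => rfl, conjAut hgN, conjAut_mem_of_mem_kNormalizer hg hgN, fun x => rfl⟩
  comp_mem := by
    rintro P R φ χ ⟨hφ, hP, hφT, ψ, hψ, hext, α, hα, hψQ⟩ ⟨hχ, hR, hχT, θ, hθ, hext', β, hβ, hθQ⟩ h
    have hmem : ∀ x : (P ⊔ Q : Subgroup Ω), ψ x ∈ R ⊔ Q :=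
      map_mem_sup ψ (fun x => hext x ▸ h x) fun x => (hψQ x).symm ▸ (α x).2
    refine ⟨F.comp_mem hφ hχ h, hP, fun x => hχT _, _, F.comp_mem hψ hθ hmem, fun x => ?_, β * α,
      mul_mem hβ hα, fun x => ?_⟩
    · show θ ⟨_, hmem _⟩ = χ ⟨φ x, h x⟩
      rw [← hext' ⟨φ x, h x⟩]
      exact congrArg θ (Subtype.ext (hext x))
    · show θ ⟨_, hmem _⟩ = ((β (α x) : Q) : Ω)
      exact (congrArg θ (Subtype.ext (hψQ x))).trans (hθQ (α x))
  inv_mem := by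
    rintro P φ ⟨hφ, hP, hφT, ψ, hψ, hext, α, hα, hψQ⟩
    obtain ⟨φ', hφ', hφ'r, hφ'φ, -⟩ := exists_inv F hφ rfl
    obtain ⟨ψ', hψ', -, hψ'ψ, -⟩ := exists_inv F hψ rfl
    have hle : φ.range ⊔ Q ≤ ψ.range := by
      refine sup_le ?_ fun z hz => ⟨_, (hψQ (α⁻¹ ⟨z, hz⟩)).trans (by simp)⟩
      rintro _ ⟨x, rfl⟩
      exact ⟨_, hext x⟩
    refine ⟨φ', ⟨hφ', ?_, fun y => hP (hφ'r.le ⟨y, rfl⟩), _, restrict_mem F hψ' hle, ?_, α⁻¹,
      inv_mem hα, ?_⟩, fun x => hφ'φ x _⟩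
    · rintro _ ⟨x, rfl⟩
      exact hφT x
    · rintro ⟨_, x, rfl⟩
      show ψ' ⟨φ x, _⟩ = φ' ⟨φ x, _⟩
      exact ((congrArg ψ' (Subtype.ext (hext x).symm)).trans
        (hψ'ψ (Subgroup.inclusion le_sup_left x) ⟨_, rfl⟩)).trans (hφ'φ x _).symm
    · intro x
      show ψ' ⟨(x : Ω), hle (Subgroup.mem_sup_right x.2)⟩ = _
      refine (congrArg ψ' (Subtype.ext ?_)).trans (hψ'ψ (Subgroup.inclusion le_sup_right (α⁻¹ x)) ⟨_, rfl⟩)
      refine Eq.trans ?_ (hψQ (α⁻¹ x)).symm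
      simp

/-- Saturation. -/
theorem isSaturated_kSys [Finite S] {p : ℕ} [Fact p.Prime] (hS : IsPGroup p S)
    {F : Cfsg.FusionSystem S} (hF : F.IsSaturated p) {Q : Subgroup Ω} (hQ : F.IsReceptive Q)
    {K : Subgroup (MulAut Q)}
    (hA : ∀ X : Subgroup (MulAut Q), X ≤ F.autGroup Q ⊓ K → IsPGroup p X →
      ∃ a ∈ F.autGroup Q ⊓ K, ∀ x ∈ X, a * x * a⁻¹ ∈ Cfsg.autInducedBy S Q) :
    (kSys F Q hQ.1 K).IsSaturated p :=
  isSaturated_kNormalizer hS hF hQ hA rfl _ fun _ _ => Iff.rfl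

end CfsgLib.Product89
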