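import Cfsg.Agent.Fus.NormalCentralizer.Closed
import Cfsg.Agent.Fus.PPowerExist.Normal
import Cfsg.Agent.FusTate.Tate
import Cfsg.Agent.Fusion.Alperin.Criteria

/-!
Lifting an automorphism of `P ∩ U` of order prime to `p`, with `U` containing the hyperfocal
subgroup, to an automorphism of `P` differing from a given one by a stabilizer of `1 ≤ P ∩ U ≤ P`.
-/

set_option autoImplicit false

namespace CfsgLib.Product89

open Cfsg Cfsg.FusionSystem CfsgLib.Fus CfsgLib.NormalCent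
open scoped Pointwise

variable {Ω : Type*} [Group Ω]

theorem commute_of_conj_eq {t s y : Ω} (h : t * y * t⁻¹ = s * y * s⁻¹) :
    y * (t⁻¹ * s) = t⁻¹ * s * y := by
  calc y * (t⁻¹ * s) = t⁻¹ * (t * y * t⁻¹) * s := by group
    _ = t⁻¹ * (s * y * s⁻¹) * s := by rw [h]
    _ = t⁻¹ * s * y := by group

/-- Stabilizers of `1 ≤ P ∩ U ≤ P` have `p`-power order, and lie in `O_p` of every group of
automorphisms respecting `P ∩ U`. -/
theorem pow_eq_one_of_stab {p : ℕ} [Fact p.Prime] {P U : Subgroup Ω} [Finite P] (hP : IsPGroup p P)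
    {δ : MulAut P} (h1 : ∀ x : P, (x : Ω) ∈ U → δ x = x)
    (h2 : ∀ x : P, (x : Ω)⁻¹ * ((δ x : P) : Ω) ∈ U) : ∃ k, δ ^ p ^ k = 1 := by
  refine Fusion.Alperin.exists_pow_eq_one_of_stabilizes hP 2
    (fun i => if i = 0 then ⊥ else if i = 1 then P ⊓ U else P) rfl le_rfl
    (monotone_nat_of_le_succ fun i => ?_) fun i hi x hx => ?_
  · match i with
    | 0 => exact bot_le
    | 1 => exact inf_le_left
    | n + 2 => exact le_rfl
  · match i with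
    | 0 =>
      show _ ∈ (⊥ : Subgroup Ω)
      rw [h1 x hx.2, inv_mul_cancel]
      exact one_mem _
    | 1 => exact ⟨P.mul_mem (P.inv_mem x.2) (δ x).2, h2 x⟩

theorem mem_pCore_of_stab {p : ℕ} [Fact p.Prime] {P U : Subgroup Ω} [Finite P] (hP : IsPGroup p P)
    {A : Subgroup (MulAut P)} (hA : ∀ a ∈ A, ∀ x : P, (x : Ω) ∈ U → ((a x : P) : Ω) ∈ U)
    {δ : A} (h1 : ∀ x : P, (x : Ω) ∈ U → (δ : MulAut P) x = x)
    (h2 : ∀ x : P, (x : Ω)⁻¹ * (((δ : MulAut P) x : P) : Ω) ∈ U) : δ ∈ Cfsg.pCore p A := by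
  refine Fusion.Alperin.mem_pCore_of_stabilizes hP A 2
    (fun i => if i = 0 then ⊥ else if i = 1 then P ⊓ U else P) rfl le_rfl
    (monotone_nat_of_le_succ fun i => ?_) (fun i a ha x hx => ?_) fun i hi x hx => ?_
  · match i with
    | 0 => exact bot_le
    | 1 => exact inf_le_left
    | n + 2 => exact le_rfl
  · match i with
    | 0 =>
      have hx' : (x : Ω) = 1 := hx
      rw [show x = 1 from Subtype.ext hx', map_one]
      exact one_mem _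
    | 1 => exact ⟨(a x).2, hA a ha x hx.2⟩
    | n + 2 => exact (a x).2
  · match i with
    | 0 =>
      show _ ∈ (⊥ : Subgroup Ω)
      rw [h1 x hx.2, inv_mul_cancel]
      exact one_mem _
    | 1 => exact ⟨P.mul_mem (P.inv_mem x.2) ((δ : MulAut P) x).2, h2 x⟩

variable {R U : Subgroup Ω} [Finite R] {p : ℕ} [Fact p.Prime] {H : Cfsg.FusionSystem R}

/-- An automorphism of `P ∩ U` of order prime to `p` that is the restriction of some `α` moving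
`P` within its cosets of `U` extends to such an automorphism in the system. -/
theorem exists_lift (hR : IsPGroup p R) (hH : H.IsSaturated p) (hUR : U ≤ R)
    (hUn : (U.subgroupOf R).Normal) (hh : H.hyperfocalSubgroup p ≤ U) {P : Subgroup Ω} (hP : P ≤ R)
    (hQc : TCentric H U (P ⊓ U)) {α : MulAut P} (hco : (orderOf α).Coprime p)
    (hαU : ∀ x : P, (x : Ω)⁻¹ * ((α x : P) : Ω) ∈ U) {a : MulAut (P ⊓ U : Subgroup Ω)}
    (ha : a ∈ H.autGroup (P ⊓ U)) (hae : ∀ x : (P ⊓ U : Subgroup Ω),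
      ((a x : (P ⊓ U : Subgroup Ω)) : Ω) = ((α (Subgroup.inclusion inf_le_left x) : P) : Ω)) :
    ∃ β ∈ H.autGroup P, (∀ x : P, (x : Ω) ∈ U → β x = α x) ∧
      ∀ x : P, (x : Ω)⁻¹ * ((β x : P) : Ω) ∈ U := by
  have hQP : (P ⊓ U : Subgroup Ω) ≤ P := inf_le_left
  have hQR : (P ⊓ U : Subgroup Ω) ≤ R := hQP.trans hP
  have : Finite P := finite_of_le hP
  have : Finite (P ⊓ U : Subgroup Ω) := finite_of_le hQR
  have hiff : ∀ {N : Subgroup Ω} {f : Ω → Ω}, Mor H N f → ∀ x ∈ N, (x ∈ U ↔ f x ∈ U) := by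
    rintro N f ⟨φ, hφ, e⟩ x hx
    rw [← e ⟨x, hx⟩]
    exact PPowerExist.mem_iff_of_hom hR hH hUR hUn hh hφ ⟨x, hx⟩
  have hconj : ∀ {s u : Ω}, s ∈ R → u ∈ U → s * u * s⁻¹ ∈ U :=
    fun hs hu => PPowerExist.conj_mem_T hUR hUn hs hu
  have hPQ : ∀ x ∈ P, ∀ q ∈ (P ⊓ U : Subgroup Ω), x * q * x⁻¹ ∈ (P ⊓ U : Subgroup Ω) := fun x hx q hq =>
    ⟨P.mul_mem (P.mul_mem hx hq.1) (P.inv_mem hx), hconj (hP hx) hq.2⟩
  have hPN : P ≤ normalizerIn R (P ⊓ U : Subgroup Ω) := fun x hx => ⟨hP hx, Subgroup.mem_normalizer_iff.2 fun q =>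
    ⟨hPQ x hx q, fun hq => by
      have h1 := hPQ _ (P.inv_mem hx) _ hq
      rwa [show x⁻¹ * (x * q * x⁻¹) * x⁻¹⁻¹ = q by group] at h1⟩⟩
  have hQN : (P ⊓ U : Subgroup Ω) ≤ normalizerIn R (P ⊓ U : Subgroup Ω) := hQP.trans hPN
  -- a fully normalized image of `(P ⊓ U : Subgroup Ω)`
  obtain ⟨Q₀, hQQ₀, hfn⟩ := exists_fullyNormalized H hQR
  obtain ⟨φ, hφ, hφr, θ, hθ, hθe⟩ := exists_normalizer_map_fn hR hH hfn hQQ₀
  obtain ⟨g, hg, hge⟩ := exists_mor hθ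
  have hgQ : g '' ((P ⊓ U : Subgroup Ω) : Set Ω) = Q₀ := by
    rw [← hφr]
    ext y
    constructor
    · rintro ⟨x, hx, rfl⟩
      exact ⟨⟨x, hx⟩, ((hge ⟨x, hQN hx⟩).trans (hθe ⟨x, hx⟩ (hQN hx))).symm⟩
    · rintro ⟨x, rfl⟩
      exact ⟨x, x.2, (hge ⟨x, hQN x.2⟩).trans (hθe x (hQN x.2))⟩
  have hgQm : ∀ x ∈ (P ⊓ U : Subgroup Ω), g x ∈ Q₀ := fun x hx => by
    show _ ∈ (Q₀ : Set Ω)
    rw [← hgQ]
    exact ⟨x, hx, rfl⟩
  obtain ⟨P₀, hgP, hP₀R⟩ := hg.exists_img hPN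
  have hgPm : ∀ x ∈ P, g x ∈ P₀ := fun x hx => by
    show _ ∈ (P₀ : Set Ω)
    rw [← hgP]
    exact ⟨x, hx, rfl⟩
  have hP₀g : ∀ y ∈ P₀, ∃ x ∈ P, g x = y := fun y hy =>
    (show y ∈ g '' (P : Set Ω) from hgP ▸ hy)
  have hQ₀g : ∀ y ∈ Q₀, ∃ x ∈ (P ⊓ U : Subgroup Ω), g x = y := fun y hy =>
    (show y ∈ g '' ((P ⊓ U : Subgroup Ω) : Set Ω) from hgQ ▸ hy)
  have hQ₀P₀ : Q₀ ≤ P₀ := fun y hy => by
    obtain ⟨x, hx, rfl⟩ := hQ₀g y hy
    exact hgPm x (hQP hx)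
  obtain ⟨g', hg', hg'g, hgg', hg'P⟩ := (hg.restrict hPN).exists_inv hgP
  have hcent : ∀ c ∈ U, (∀ q ∈ Q₀, q * c = c * q) → c ∈ Q₀ := by
    intro c hc hcomm
    obtain ⟨x, hx, rfl⟩ := hQc.2 g (hg.restrict hQN) c hc fun x hx => hcomm _ (hgQm x hx)
    exact hgQm x hx
  -- the automorphism of `Q₀`
  obtain ⟨fa, hfa, hfae, hfaimg⟩ := exists_mor_of_aut hQR ⟨a, ha⟩
  have hfaQ : ∀ x ∈ (P ⊓ U : Subgroup Ω), fa x ∈ (P ⊓ U : Subgroup Ω) := fun x hx => by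
    rw [show fa x = _ from hfae ⟨x, hx⟩]
    exact SetLike.coe_mem _
  have hg'Q : ∀ y ∈ Q₀, g' y ∈ (P ⊓ U : Subgroup Ω) := fun y hy => by
    obtain ⟨x, hx, rfl⟩ := hQ₀g y hy
    rw [hg'g x (hQP hx)]
    exact hx
  set σ : Ω → Ω := g ∘ (fa ∘ g')
  have hσ : Mor H Q₀ σ :=
    ((hg'.restrict hQ₀P₀).comp hfa hg'Q).comp (hg.restrict hQN) fun y hy => hfaQ _ (hg'Q y hy)
  have hσe : ∀ q : (P ⊓ U : Subgroup Ω), σ (g q) = g (a q : (P ⊓ U : Subgroup Ω)) := fun q => by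
    show g (fa (g' (g q))) = _
    rw [hg'g q (hQP q.2), hfae]
  have : Finite Q₀ := finite_of_le (hQ₀P₀.trans hP₀R)
  have hσimg : σ '' (Q₀ : Set Ω) = Q₀ := image_eq hσ fun y hy => hgQm _ (hfaQ _ (hg'Q y hy))
  -- conjugation by `P` commutes with `a` up to `α`
  have hcomm : ∀ (x : P) (q : (P ⊓ U : Subgroup Ω)), ∃ q' : (P ⊓ U : Subgroup Ω), g q' = g x * g q * (g x)⁻¹ ∧
      g (a q' : (P ⊓ U : Subgroup Ω)) = g (α x : P) * g (a q : (P ⊓ U : Subgroup Ω)) * (g (α x : P))⁻¹ := by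
    intro x q
    refine ⟨⟨(x : Ω) * q * (x : Ω)⁻¹, hPQ x x.2 q q.2⟩, hg.map_conj (hPN x.2) (hQN q.2), ?_⟩
    rw [← hg.map_conj (hPN (α x).2) (hQN (a q).2), hae, hae,
      show Subgroup.inclusion (inf_le_left : (P ⊓ U : Subgroup Ω) ≤ P)
        (⟨(x : Ω) * q * (x : Ω)⁻¹, hPQ x x.2 q q.2⟩ : (P ⊓ U : Subgroup Ω)) =
          x * Subgroup.inclusion inf_le_left q * x⁻¹ from rfl,
      map_mul, map_mul, map_inv]
    rfl
  -- the extension to `L = P₀ C_R(Q₀)`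
  set C₀ := centralizerIn R Q₀
  have hP₀N : P₀ ≤ normalizerIn R Q₀ := fun y hy => by
    obtain ⟨x, hx, rfl⟩ := hP₀g y hy
    exact hg.map_normalizer hQN hgQ (hPN hx) (hPN hx).2
  have hP₀C : P₀ ≤ Subgroup.normalizer (C₀ : Set Ω) := fun y hy =>
    Subgroup.mem_normalizer_iff.2 fun c => ⟨le_normalizer_centralizerIn (hP₀N hy), fun hc => by
      have h1 := le_normalizer_centralizerIn (hP₀N (P₀.inv_mem hy)) hc
      rwa [show y⁻¹ * (y * c * y⁻¹) * y⁻¹⁻¹ = c by group] at h1⟩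
  set L := P₀ ⊔ C₀
  have hLprod : ∀ l ∈ L, ∃ x : P, ∃ c ∈ C₀, l = g x * c := by
    intro l hl
    have hl' : l ∈ ((P₀ : Set Ω) * (C₀ : Set Ω)) := by
      rw [← Subgroup.coe_mul_of_left_le_normalizer_right P₀ C₀ hP₀C]
      exact hl
    obtain ⟨y, hy, c, hc, rfl⟩ := hl'
    obtain ⟨x, hx, rfl⟩ := hP₀g y hy
    exact ⟨⟨x, hx⟩, c, hc, rfl⟩
  have hLN : L ≤ normalizerIn R Q₀ := sup_le hP₀N (centralizerIn_le_normalizerIn Q₀)
  have hQ₀L : Q₀ ≤ L := hQ₀P₀.trans le_sup_left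
  obtain ⟨τ, hτ, hτe⟩ := hσ.exists_ext hσimg (fullyNormalized_props hR hH hfn).2 hQ₀L hLN
    (fun l hl => by
      obtain ⟨x, c, hc, rfl⟩ := hLprod l hl
      refine ⟨g (α x : P), hg.mem (hPN (α x).2), fun y hy => ?_⟩
      obtain ⟨q, hq, rfl⟩ := hQ₀g y hy
      rw [show g x * c * g q * (g x * c)⁻¹ = g x * (c * g q) * c⁻¹ * (g x)⁻¹ by group,
        ← hc.2 _ (hgQm q hq), mul_assoc (g x), mul_inv_cancel_right]
      obtain ⟨q', hq', hq'a⟩ := hcomm x ⟨q, hq⟩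
      rw [← hq', hσe, hq'a, ← hσe ⟨q, hq⟩])
  have hLR : L ≤ R := hτ.le
  have : Finite L := finite_of_le hLR
  have := finite_mulAut L
  have hτQ₀ : τ '' (Q₀ : Set Ω) = Q₀ :=
    (Set.EqOn.image_eq fun y hy => hτe y hy).trans hσimg
  have hτg : ∀ x : P, (g (α x : P))⁻¹ * τ (g x) ∈ C₀ := fun x => by
    refine ⟨R.mul_mem (R.inv_mem (hg.mem (hPN (α x).2)))
      (hτ.mem (Subgroup.mem_sup_left (hgPm x x.2))), fun y hy => ?_⟩
    obtain ⟨w, hw, rfl⟩ := (show y ∈ τ '' (Q₀ : Set Ω) from hτQ₀.ge hy)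
    obtain ⟨q, hq, rfl⟩ := hQ₀g w hw
    obtain ⟨q', hq', hq'a⟩ := hcomm x ⟨q, hq⟩
    refine commute_of_conj_eq ?_
    rw [← hτ.map_conj (Subgroup.mem_sup_left (hgPm x x.2)) (hQ₀L hw), ← hq',
      hτe _ (hgQm _ q'.2), hσe, hq'a, hτe _ hw, hσe ⟨q, hq⟩]
  have hτL : ∀ l ∈ L, τ l ∈ L := by
    intro l hl
    obtain ⟨x, c, hc, rfl⟩ := hLprod l hl
    rw [hτ.map_mul (Subgroup.mem_sup_left (hgPm x x.2)) (Subgroup.mem_sup_right hc)]
    refine mul_mem ?_ (Subgroup.mem_sup_right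
      (map_centralizerIn hτ hQ₀L hτQ₀ (Subgroup.mem_sup_right hc) hc))
    rw [← mul_inv_cancel_left (g (α x : P)) (τ (g x))]
    exact mul_mem (Subgroup.mem_sup_left (hgPm _ (α x).2)) (Subgroup.mem_sup_right (hτg x))
  obtain ⟨b, hb⟩ := exists_aut_of_mor hτ (image_eq hτ hτL)
  -- a power of order prime to `p`
  have hpow : ∀ (i : ℕ) (q : (P ⊓ U : Subgroup Ω)), (((a ^ i) q : (P ⊓ U : Subgroup Ω)) : Ω) =
      (((α ^ i) (Subgroup.inclusion inf_le_left q) : P) : Ω) := by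
    intro i
    induction i with
    | zero => exact fun q => rfl
    | succ i ih =>
      intro q
      rw [pow_succ, pow_succ, MulAut.mul_apply, MulAut.mul_apply, ih]
      congr 2
      exact Subtype.ext (hae q)
  have haco : (orderOf a).Coprime p :=
    hco.coprime_dvd_left (orderOf_dvd_of_pow_eq_one (MulEquiv.ext fun q => Subtype.ext (by
      rw [hpow, pow_orderOf_eq_one]
      rfl)))
  obtain ⟨k, n, -, hn, hbn, hak⟩ := exists_coprime_exponent (b : MulAut L) haco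
  have hit : ∀ (i : ℕ) (q : (P ⊓ U : Subgroup Ω)), τ^[i] (g q) = g ((a ^ i) q : (P ⊓ U : Subgroup Ω)) := by
    intro i
    induction i with
    | zero => exact fun q => rfl
    | succ i ih =>
      intro q
      rw [Function.iterate_succ_apply', ih, hτe _ (hgQm _ (Subtype.prop _)), hσe, pow_succ',
        MulAut.mul_apply]
  set τ' : Ω → Ω := τ^[k]
  obtain ⟨hτ', hτ'L⟩ := mor_iterate hτ hτL k
  have hτ'g : ∀ q : (P ⊓ U : Subgroup Ω), τ' (g q) = g (a q : (P ⊓ U : Subgroup Ω)) := fun q => by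
    rw [show τ' (g q) = _ from hit k q, hak a rfl]
  have hτ'd : ∀ y ∈ L, y⁻¹ * τ' y ∈ U := by
    intro y hy
    have h1 := hh (FusAut.mem_hyperfocal H hLR (pow_mem b.2 k)
      (hn.coprime_dvd_left (orderOf_dvd_of_pow_eq_one hbn)) ⟨y, hy⟩)
    rw [Subgroup.coe_mul, Subgroup.coe_inv,
      ← iterate_eq_aut (f := τ) (fun z => (hb z).symm) k ⟨y, hy⟩] at h1
    exact h1
  have hτ'P : ∀ x ∈ P, τ' (g x) ∈ P₀ := by
    intro x hx
    set t := g ((α ⟨x, hx⟩ : P) : Ω)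
    have hxN := hPN hx
    have hxL : g x ∈ L := Subgroup.mem_sup_left (hgPm x hx)
    have htU : (g x)⁻¹ * t ∈ U := by
      rw [← hg.map_inv hxN, ← hg.map_mul (Subgroup.inv_mem _ hxN) (hPN (α ⟨x, hx⟩).2)]
      exact (hiff hg _ (Subgroup.mul_mem _ (Subgroup.inv_mem _ hxN) (hPN (α ⟨x, hx⟩).2))).1
        (hαU ⟨x, hx⟩)
    have hcU : t⁻¹ * τ' (g x) ∈ U := by
      rw [show t⁻¹ * τ' (g x) = ((g x)⁻¹ * t)⁻¹ * ((g x)⁻¹ * τ' (g x)) by group]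
      exact U.mul_mem (U.inv_mem htU) (hτ'd _ hxL)
    have hc : t⁻¹ * τ' (g x) ∈ Q₀ := by
      refine hcent _ hcU fun y hy => ?_
      obtain ⟨q, hq, rfl⟩ := hQ₀g y hy
      obtain ⟨q₁, hq₁⟩ := a.surjective ⟨q, hq⟩
      rw [show q = ((a q₁ : (P ⊓ U : Subgroup Ω)) : Ω) from (congrArg Subtype.val hq₁).symm]
      obtain ⟨q', hq', hq'a⟩ := hcomm ⟨x, hx⟩ q₁
      refine commute_of_conj_eq ?_
      rw [← hq'a, ← hτ'g, ← hτ'g, hq']
      exact hτ'.map_conj hxL (hQ₀L (hgQm _ q₁.2))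
    rw [← mul_inv_cancel_left t (τ' (g x))]
    exact P₀.mul_mem (hgPm _ (α ⟨x, hx⟩).2) (hQ₀P₀ hc)
  set m : Ω → Ω := g' ∘ (τ' ∘ g)
  have hm : Mor H P m :=
    ((hg.restrict hPN).comp hτ' fun x hx => Subgroup.mem_sup_left (hgPm x hx)).comp hg' hτ'P
  obtain ⟨β, hβ⟩ := exists_aut_of_mor hm (image_eq hm fun x hx => by
    show g' (τ' (g x)) ∈ (P : Set Ω)
    rw [← hg'P]
    exact ⟨_, hτ'P x hx, rfl⟩)
  refine ⟨β, β.2, fun x hx => Subtype.ext ?_, fun x => ?_⟩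
  · rw [hβ]
    show g' (τ' (g ((⟨x, x.2, hx⟩ : (P ⊓ U : Subgroup Ω)) : Ω))) = _
    rw [hτ'g, hg'g _ (hQP (Subtype.prop _)), hae]
    rfl
  · rw [hβ]
    show (x : Ω)⁻¹ * g' (τ' (g x)) ∈ U
    nth_rw 1 [← hg'g x x.2]
    rw [← hg'.map_inv (hgPm x x.2), ← hg'.map_mul (P₀.inv_mem (hgPm x x.2)) (hτ'P x x.2)]
    exact (hiff hg' _ (P₀.mul_mem (P₀.inv_mem (hgPm x x.2)) (hτ'P x x.2))).1
      (hτ'd _ (Subgroup.mem_sup_left (hgPm x x.2)))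

/-- The same, in terms of the quotient of `α` by the extension. -/
theorem exists_stab (hR : IsPGroup p R) (hH : H.IsSaturated p) (hUR : U ≤ R)
    (hUn : (U.subgroupOf R).Normal) (hh : H.hyperfocalSubgroup p ≤ U) {P : Subgroup Ω} (hP : P ≤ R)
    (hQc : TCentric H U (P ⊓ U)) {α : MulAut P} (hco : (orderOf α).Coprime p)
    (hαU : ∀ x : P, (x : Ω)⁻¹ * ((α x : P) : Ω) ∈ U) {a : MulAut (P ⊓ U : Subgroup Ω)}
    (ha : a ∈ H.autGroup (P ⊓ U)) (hae : ∀ x : (P ⊓ U : Subgroup Ω),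
      ((a x : (P ⊓ U : Subgroup Ω)) : Ω) = ((α (Subgroup.inclusion inf_le_left x) : P) : Ω)) :
    ∃ β ∈ H.autGroup P, (∀ x : P, (x : Ω) ∈ U → (β⁻¹ * α) x = x) ∧
      ∀ x : P, (x : Ω)⁻¹ * (((β⁻¹ * α) x : P) : Ω) ∈ U := by
  obtain ⟨β, hβ, h1, h2⟩ := exists_lift hR hH hUR hUn hh hP hQc hco hαU ha hae
  refine ⟨β, hβ, fun x hx => ?_, fun x => ?_⟩
  · rw [MulAut.mul_apply, ← h1 x hx, MulAut.inv_apply_self]
  · set y := (β⁻¹ * α) x
    have hy : β y = α x := by simp [y]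
    have h3 := h2 y
    rw [hy] at h3
    have h4 := U.mul_mem (hαU x) (U.inv_mem h3)
    rwa [show (x : Ω)⁻¹ * ((α x : P) : Ω) * ((y : Ω)⁻¹ * ((α x : P) : Ω))⁻¹ =
      (x : Ω)⁻¹ * (y : Ω) by group] at h4

end CfsgLib.Product89
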