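import Cfsg.Agent.Fus.Product89.Lift
import Cfsg.Agent.Fus.Product89.Defs
import Cfsg.Agent.Fus.PPowerExist.Exists
import Cfsg.Agent.Eq.Def_FusionComponents

/-!
A saturated subsystem over `R` with the `p`-residual subsystem of the normal subsystem `E` is the
product of `E` and `R`.
-/

set_option autoImplicit false

namespace CfsgLib.Product89

open Cfsg Cfsg.FusionSystem CfsgLib.Fus CfsgLib.NormalCent

variable {Ω : Type*} [Group Ω]

theorem tCentric_of_isCentric_of_sub {R U : Subgroup Ω} {H : Cfsg.FusionSystem R}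
    {X : Cfsg.FusionSystem U} (h : X.IsSubsystemOf H) {Q : Subgroup Ω} (hQ : TCentric H U Q) :
    X.IsCentric Q := by
  refine ⟨hQ.1, ?_⟩
  rintro Q' ⟨φ, hφ, rfl⟩ c hc
  obtain ⟨f, hf, hfe⟩ := exists_mor (h Q hφ)
  obtain ⟨x, hx, rfl⟩ := hQ.2 f hf c hc.1 fun x hx => by
    rw [hfe ⟨x, hx⟩]
    exact hc.2 _ ⟨_, rfl⟩
  exact ⟨⟨x, hx⟩, (hfe ⟨x, hx⟩).symm⟩

theorem autGroup_congr {A B : Subgroup Ω} {X : Cfsg.FusionSystem A} {Y : Cfsg.FusionSystem B}
    (h : ∀ P, X.Hom P = Y.Hom P) (P : Subgroup Ω) : X.autGroup P = Y.autGroup P :=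
  le_antisymm (autGroup_mono (fun P => (h P).le) P) (autGroup_mono (fun P => (h P).ge) P)

theorem pPowerIndex_trans {A B C : Subgroup Ω} {X : Cfsg.FusionSystem A} {Y : Cfsg.FusionSystem B}
    {Z : Cfsg.FusionSystem C} {p : ℕ} (hAB : A ≤ B) (hXY : X.HasPPowerIndexIn Y p)
    (hYZ : Y.HasPPowerIndexIn Z p) (hh : Z.hyperfocalSubgroup p ≤ A) :
    X.HasPPowerIndexIn Z p :=
  ⟨fun P _ h => hYZ.1 P (hXY.1 P h), hh, fun P hP =>
    (FusAut.pResidual_subset_of_le hYZ (hP.trans hAB)).trans (hXY.2.2 P hP)⟩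

section Residual

variable {R U : Subgroup Ω} [Finite R] {p : ℕ} [Fact p.Prime]

/-- The restriction to `P ∩ U` of an automorphism of order prime to `p` lies in the subsystem of
`p`-power index over `U`. -/
theorem exists_res_mem (hR : IsPGroup p R) {G : Cfsg.FusionSystem R} (hG : G.IsSaturated p)
    (hUR : U ≤ R) (hUn : (U.subgroupOf R).Normal) {X : Cfsg.FusionSystem U}
    (hX : X.HasPPowerIndexIn G p) {P : Subgroup Ω} (hP : P ≤ R) {α : MulAut P}
    (hα : α ∈ G.autGroup P) (hco : (orderOf α).Coprime p) :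
    (∀ x : P, (x : Ω) ∈ U → ((α x : P) : Ω) ∈ U) ∧
      (∀ x : P, (x : Ω)⁻¹ * ((α x : P) : Ω) ∈ U) ∧ ∃ a ∈ X.autGroup (P ⊓ U),
        ∀ x : (P ⊓ U : Subgroup Ω), ((a x : (P ⊓ U : Subgroup Ω)) : Ω) =
          ((α (Subgroup.inclusion inf_le_left x) : P) : Ω) := by
  have : Finite P := finite_of_le hP
  have hin : ∀ x : P, (x : Ω) ∈ U → ((α x : P) : Ω) ∈ U := fun x hx =>
    (PPowerExist.mem_iff_of_hom hR hG hUR hUn hX.2.1 ((mem_autGroup_iff G hP).1 hα) x).1 hx
  refine ⟨hin, fun x => ?_, ?_⟩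
  · have h := hX.2.1 (FusAut.mem_hyperfocal G hP hα hco x)
    rwa [Subgroup.coe_mul, Subgroup.coe_inv] at h
  obtain ⟨a, ha⟩ := FusAut.exists_restrict (inf_le_left : P ⊓ U ≤ P) α
    fun x hx => ⟨(α x).2, hin x hx.2⟩
  have ha1 : ∀ x, ((a x : (P ⊓ U : Subgroup Ω)) : Ω) =
      ((α (Subgroup.inclusion inf_le_left x) : P) : Ω) := fun x => by simpa using ha 1 x
  refine ⟨a, hX.2.2 _ inf_le_right (LocalCharP.mem_map_pResidual
    (FusAut.restrict_mem_autGroup G hP inf_le_left hα ha1) ?_), ha1⟩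
  refine hco.coprime_dvd_left (orderOf_dvd_of_pow_eq_one (MulEquiv.ext fun y => Subtype.ext ?_))
  rw [ha, pow_orderOf_eq_one]
  rfl

/-- A saturated system is contained in a saturated subsystem with the same subsystem of `p`-power
index. -/
theorem subsystem_of_common_residual (hR : IsPGroup p R) {D G : Cfsg.FusionSystem R}
    (hD : D.IsSaturated p) (hG : G.IsSaturated p) (hDG : D.IsSubsystemOf G) (hUR : U ≤ R)
    (hUn : (U.subgroupOf R).Normal) {X : Cfsg.FusionSystem U} (hX : X.IsSaturated p)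
    (hXD : X.HasPPowerIndexIn D p) (hXG : X.HasPPowerIndexIn G p) : G.IsSubsystemOf D := by
  have hXn : X.IsNormalIn G p :=
    PPowerExist.isNormalIn_of_pPowerIndex hR hG hUR hUn hXG.2.1 hX hXG
  refine fun P => Fusion.Alperin.hom_subset_of_autGroup_le hR hG (fun P hP => ?_) P
  have hPR : P ≤ R := hP.centric.1
  have : Finite P := finite_of_le hPR
  have := finite_mulAut P
  refine (FusAut.autGroup_le_sup (fullyNormalized_props hR hG hP.fullyNormalized).1).trans
    (sup_le (LocalCharP.map_pResidual_le_iff.2 fun α hα hco => ?_)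
      (autInducedBy_le_autGroup D hPR))
  obtain ⟨-, hαU, a, ha, hae⟩ := exists_res_mem hR hG hUR hUn hXG hPR hα hco
  have htc := tcentric_inter hR hXn hP.centric hP.radical
  obtain ⟨β, hβ, h1, h2⟩ := exists_stab hR hD hUR hUn hXD.2.1 hPR
    ⟨htc.1, fun f ⟨φ, hφ, e⟩ => htc.2 f ⟨φ, hDG _ hφ, e⟩⟩ hco hαU (autGroup_mono hXD.1 _ ha) hae
  have hδ : β⁻¹ * α ∈ G.autGroup P := mul_mem (inv_mem (autGroup_mono hDG P hβ)) hα
  have hcore := mem_pCore_of_stab (hR.to_le hPR) (A := G.autGroup P) (fun b hb x hx =>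
    (PPowerExist.mem_iff_of_hom hR hG hUR hUn hXG.2.1 ((mem_autGroup_iff G hPR).1 hb) x).1 hx)
    (δ := ⟨β⁻¹ * α, hδ⟩) h1 h2
  have hinn : β⁻¹ * α ∈ Cfsg.Inn P := hP.radical.2.le ⟨_, hcore, rfl⟩
  have h3 := mul_mem hβ (inn_le_autGroup D hPR hinn)
  rwa [mul_inv_cancel_left] at h3

end Residual

variable {S T : Subgroup Ω} [Finite S] {p : ℕ} [Fact p.Prime] {F : Cfsg.FusionSystem S}
  {E : Cfsg.FusionSystem T}

omit [Finite S] in
/-- An element of order prime to `p` congruent to a `p`-element modulo `Aut_E(P)` lies in it. -/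
theorem mem_E_of_stab (hE : E.IsNormalIn F p) {P : Subgroup Ω} (hPT : P ≤ T) {β δ : MulAut P}
    (hβ : β ∈ E.autGroup P) (hδ : δ ∈ F.autGroup P) {k : ℕ} (hk : δ ^ p ^ k = 1)
    (hco : (orderOf (β * δ)).Coprime p) : β * δ ∈ E.autGroup P := by
  have hPS : P ≤ S := hPT.trans (le_S hE)
  set N := (E.autGroup P).subgroupOf (F.autGroup P)
  have hN : N.Normal := ⟨fun n hn γ => by
    have hγ := (mem_autGroup_iff F hPS).1 γ.2
    have h := congr_mem_E hE hγ (range_subtype_comp (γ : MulAut P)) hPT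
      (a := (n : MulAut P)) hn
    have hr0 := range_subtype_comp (γ : MulAut P)
    have e : MulAut.congr (isoOf hγ hr0) (n : MulAut P) =
        ((γ * n * γ⁻¹ : F.autGroup P) : MulAut P) := by
      refine MulEquiv.ext fun y => ?_
      obtain ⟨x, rfl⟩ := (isoOf hγ hr0).surjective y
      have e1 : isoOf hγ hr0 x = (γ : MulAut P) x := Subtype.ext rfl
      show isoOf hγ hr0 ((n : MulAut P) ((isoOf hγ hr0).symm (isoOf hγ hr0 x))) = _
      rw [MulEquiv.symm_apply_apply, e1]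
      show _ = (γ : MulAut P) ((n : MulAut P) ((γ : MulAut P)⁻¹ ((γ : MulAut P) x)))
      rw [MulAut.inv_apply_self]
      exact Subtype.ext rfl
    rwa [e] at h⟩
  have hβF := autGroup_mono hE.1.2.2.1 P hβ
  have := hN
  set q := QuotientGroup.mk' N
  set γ : F.autGroup P := ⟨β * δ, mul_mem hβF hδ⟩
  have h1 : q γ = q ⟨δ, hδ⟩ := by
    rw [show γ = (⟨β, hβF⟩ : F.autGroup P) * ⟨δ, hδ⟩ from rfl, map_mul,
      show q ⟨β, hβF⟩ = 1 from (QuotientGroup.eq_one_iff _).2 hβ, one_mul]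
  have h2 : orderOf (q γ) ∣ p ^ k := orderOf_dvd_of_pow_eq_one (by
    rw [h1, ← map_pow, show (⟨δ, hδ⟩ : F.autGroup P) ^ p ^ k = 1 from Subtype.ext hk, map_one])
  have h3 : orderOf (q γ) ∣ orderOf (β * δ) := by
    rw [show β * δ = (γ : MulAut P) from rfl, Subgroup.orderOf_coe]
    exact orderOf_map_dvd q γ
  exact (QuotientGroup.eq_one_iff γ).1
    (orderOf_eq_one_iff.1 (Nat.eq_one_of_dvd_coprimes (hco.pow_right k) h3 h2))

/-- The residual hypothesis makes `E` the subsystem of `p`-power index over `T`. -/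
theorem pPowerIndex_of_residual (hS : IsPGroup p S) (hE : E.IsNormalIn F p)
    {R : Subgroup Ω} (hTR : T ≤ R) (hR : R ≤ S)
    (D' : Cfsg.FusionSystem R) (hD' : D'.IsSaturated p) (hsub : D'.IsSubsystemOf F)
    (hh : D'.hyperfocalSubgroup p = E.hyperfocalSubgroup p)
    (hr : ∀ D₁ E₁, D'.IsPResidual p D₁ → E.IsPResidual p E₁ → ∀ P, D₁.Hom P = E₁.Hom P) :
    E.HasPPowerIndexIn D' p := by
  have hTS := le_S hE
  have hRp := hS.to_le hR
  have hTp := hS.to_le hTS
  have : Finite R := finite_of_le hR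
  have : Finite T := finite_of_le hTS
  have hEs := hE.1.1
  set U := E.hyperfocalSubgroup p with hU
  have hUT : U ≤ T := FusAut.hyperfocal_le E
  have hUnT : (U.subgroupOf T).Normal := FusTate.hyperfocal_normal E p
  have hUnR : (U.subgroupOf R).Normal := hh ▸ FusTate.hyperfocal_normal D' p
  -- the common residual
  obtain ⟨X, hX, hXE⟩ := PPowerExist.exists_pPowerIndex hTp E hEs hUT le_rfl
  have hXres : ∀ {D : Cfsg.FusionSystem R}, D.IsSaturated p →
      D.hyperfocalSubgroup p = U →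
      (∀ D₁ E₁, D.IsPResidual p D₁ → E.IsPResidual p E₁ → ∀ P, D₁.Hom P = E₁.Hom P) →
      X.HasPPowerIndexIn D p := by
    intro D hD hDh hDr
    obtain ⟨D₁, hD₁, hD₁i⟩ :=
      PPowerExist.exists_pPowerIndex hRp D hD (FusAut.hyperfocal_le D) le_rfl
    have he := hDr D₁ X ⟨hD₁, hD₁i⟩ ⟨hX, hXE⟩
    refine ⟨fun P φ hφ => hD₁i.1 P ((he P).ge hφ), hDh.le, fun P hP => ?_⟩
    rw [← autGroup_congr he]
    exact hD₁i.2.2 P (hP.trans hDh.ge)
  have hXD := hXres hD' hh hr
  -- the subsystem of `D'` over `T`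
  obtain ⟨E', hE', hE'i⟩ := PPowerExist.exists_pPowerIndex hRp D' hD' hTR (hh.le.trans hUT)
  have hE'h : E'.hyperfocalSubgroup p = U := (FusAut.hyperfocal_eq hRp hTR hE'i).trans hh
  have hXE' : X.HasPPowerIndexIn E' p := by
    obtain ⟨X', hX', hX'i⟩ := PPowerExist.exists_pPowerIndex hTp E' hE' hUT hE'h.le
    have := FusAut.hom_eq_of_pPowerIndex hRp (hUT.trans hTR) hX' hX
      (pPowerIndex_trans hUT hX'i hE'i hh.le) hXD
    rwa [this] at hX'i
  have hXnE : X.IsNormalIn E p :=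
    PPowerExist.isNormalIn_of_pPowerIndex hTp hEs hUT hUnT le_rfl hX hXE
  have hXnE' : X.IsNormalIn E' p :=
    PPowerExist.isNormalIn_of_pPowerIndex hTp hE' hUT hUnT hE'h.le hX hXE'
  have hE'E : E'.IsSubsystemOf E := by
    refine fun P => Fusion.Alperin.hom_subset_of_autGroup_le hTp hE' (fun P hP => ?_) P
    have hPT : P ≤ T := hP.centric.1
    have : Finite P := finite_of_le hPT
    refine (FusAut.autGroup_le_sup (fullyNormalized_props hTp hE' hP.fullyNormalized).1).trans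
      (sup_le (LocalCharP.map_pResidual_le_iff.2 fun α hα hco => ?_)
        (autInducedBy_le_autGroup E hPT))
    obtain ⟨-, hαU, a, ha, hae⟩ := exists_res_mem hTp hE' hUT hUnT hXE' hPT hα hco
    have htc : TCentric E U (P ⊓ U) := tcentric_of_centric hXnE
      (tCentric_of_isCentric_of_sub hXE'.1 (tcentric_inter hTp hXnE' hP.centric hP.radical))
    obtain ⟨β, hβ, h1, h2⟩ :=
      exists_stab hTp hEs hUT hUnT le_rfl hPT htc hco hαU (autGroup_mono hXE.1 _ ha) hae
    obtain ⟨k, hk⟩ := pow_eq_one_of_stab (hTp.to_le hPT) h1 h2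
    have hαF : α ∈ F.autGroup P :=
      autGroup_mono hsub P (autGroup_mono hE'i.1 P hα)
    have h := mem_E_of_stab hE hPT hβ
      (mul_mem (inv_mem (autGroup_mono hE.1.2.2.1 P hβ)) hαF) hk
      (by rwa [mul_inv_cancel_left])
    rwa [mul_inv_cancel_left] at h
  have heq : E' = E := FusAut.fusionSystem_ext fun P => Set.Subset.antisymm (hE'E P)
    (subsystem_of_common_residual hTp hE' hEs hE'E hUT hUnT hX hXE' hXE P)
  rwa [heq] at hE'i

/-- A saturated subsystem over `R` with the residual of `E` lies in the product, which is the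
unique such subsystem. -/
theorem eq_prodSys (hS : IsPGroup p S) (hF : F.IsSaturated p) (hE : E.IsNormalIn F p)
    {R : Subgroup Ω} (hTR : T ≤ R) (hR : R ≤ S) (hG : (prodSys F E p hR).IsSaturated p)
    (hGh : (prodSys F E p hR).hyperfocalSubgroup p = E.hyperfocalSubgroup p)
    (hGr : ∀ G₁ E₁, (prodSys F E p hR).IsPResidual p G₁ → E.IsPResidual p E₁ →
      ∀ P, G₁.Hom P = E₁.Hom P)
    (D' : Cfsg.FusionSystem R) (hD' : D'.IsSaturated p) (hsub : D'.IsSubsystemOf F)
    (hh : D'.hyperfocalSubgroup p = E.hyperfocalSubgroup p)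
    (hr : ∀ D₁ E₁, D'.IsPResidual p D₁ → E.IsPResidual p E₁ → ∀ P, D₁.Hom P = E₁.Hom P) :
    ∀ P, D'.Hom P = (prodSys F E p hR).Hom P := by
  have hTS := le_S hE
  have hRp := hS.to_le hR
  have hTp := hS.to_le hTS
  have : Finite R := finite_of_le hR
  have : Finite T := finite_of_le hTS
  have hEs := hE.1.1
  set G := prodSys F E p hR
  set U := E.hyperfocalSubgroup p with hU
  have hUT : U ≤ T := FusAut.hyperfocal_le E
  have hUnT : (U.subgroupOf T).Normal := FusTate.hyperfocal_normal E p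
  have hUnR : (U.subgroupOf R).Normal := hh ▸ FusTate.hyperfocal_normal D' p
  -- the common residual
  obtain ⟨X, hX, hXE⟩ := PPowerExist.exists_pPowerIndex hTp E hEs hUT le_rfl
  have hXres : ∀ {D : Cfsg.FusionSystem R}, D.IsSaturated p →
      D.hyperfocalSubgroup p = U →
      (∀ D₁ E₁, D.IsPResidual p D₁ → E.IsPResidual p E₁ → ∀ P, D₁.Hom P = E₁.Hom P) →
      X.HasPPowerIndexIn D p := by
    intro D hD hDh hDr
    obtain ⟨D₁, hD₁, hD₁i⟩ :=
      PPowerExist.exists_pPowerIndex hRp D hD (FusAut.hyperfocal_le D) le_rfl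
    have he := hDr D₁ X ⟨hD₁, hD₁i⟩ ⟨hX, hXE⟩
    refine ⟨fun P φ hφ => hD₁i.1 P ((he P).ge hφ), hDh.le, fun P hP => ?_⟩
    rw [← autGroup_congr he]
    exact hD₁i.2.2 P (hP.trans hDh.ge)
  have hXD := hXres hD' hh hr
  have hXG := hXres hG hGh hGr
  have hE'i := pPowerIndex_of_residual hS hE hTR hR D' hD' hsub hh hr
  have hTnR : (T.subgroupOf R).Normal :=
    ⟨fun x hx r => conj_mem_T hE (hR r.2) hx⟩
  have hED : E.IsNormalIn D' p :=
    PPowerExist.isNormalIn_of_pPowerIndex hRp hD' hTR hTnR hE'i.2.1 hEs hE'i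
  have hDG : D'.IsSubsystemOf G := by
    refine fun P => Fusion.Alperin.hom_subset_of_autGroup_le hRp hD' (fun P hP => ?_) P
    have hPR : P ≤ R := hP.centric.1
    refine (FusAut.autGroup_le_sup (fullyNormalized_props hRp hD' hP.fullyNormalized).1).trans
      (sup_le (LocalCharP.map_pResidual_le_iff.2 fun α hα hco => ?_)
        (autInducedBy_le_autGroup G hPR))
    obtain ⟨-, hαT, a, ha, hae⟩ := exists_res_mem hRp hD' hTR hTnR hE'i hPR hα hco
    exact genElt_mem hR
      { le := hPR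
        mem := autGroup_mono hsub P hα
        coprime := hco
        tc := tcentric_of_centric hE
          (tCentric_of_isCentric_of_sub hE'i.1 (tcentric_inter hRp hED hP.centric hP.radical))
        disp := hαT
        res := ⟨a, ha, hae⟩ }
  exact fun P => Set.Subset.antisymm (hDG P)
    (subsystem_of_common_residual hRp hD' hG hDG (hUT.trans hTR) hUnR hX hXD hXG P)

end CfsgLib.Product89
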